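import Groth.Agent.Sga2lef.H107.Punct

/-!
# Depth `≥ 1` at the closed point of a strictly henselian ring
-/

set_option autoImplicit false
universe u
open CategoryTheory CategoryTheory.Limits AlgebraicGeometry Opposite IsLocalRing

namespace Groth.Agent.Sga2lef.H107.DepthOne

open Groth.Agent.Etrest.StrictLoc Groth.Agent.Ega2.LACRB Groth.Agent.Sga1.UlaSL
  Groth.Agent.Sga1.UlaLoc Etcore.HpullCalc DegRB LocRQ DepthSES Groth.Agent.Sga4h.LocCohLES

/-- A map of sheaves on a strictly henselian scheme which is injective on global sections is injective on the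
stalks at the closed point. -/
theorem injective_stalk_of_top (R : Type u) [CommRing R] [HenselianLocalRing R]
    [IsSepClosed (ResidueField R)] {A B : EtCoh.Ab (Spec (CommRingCat.of R))} (φ : A ⟶ B)
    (h : Function.Injective (φ.hom.app (op (EtCoh.top (Spec (CommRingCat.of R)))))) :
    Function.Injective ((EtCoh.stalk (resPt R)).map φ) := by
  have h1 := Etbase.StrictHensPoint.bijective_toPresheafFiber R A.obj
  have h2 := Etbase.StrictHensPoint.bijective_toPresheafFiber R B.obj
  have h3 := (Scheme.pointSmallEtale (resPt R)).toPresheafFiber_naturality φ.hom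
    (EtCoh.top (Spec (CommRingCat.of R))) (Etbase.StrictHensPoint.elt R)
  have h4 : ∀ x, (EtCoh.stalk (resPt R)).map φ ((Scheme.pointSmallEtale (resPt R)).toPresheafFiber
        (EtCoh.top (Spec (CommRingCat.of R))) (Etbase.StrictHensPoint.elt R) A.obj x) =
      (Scheme.pointSmallEtale (resPt R)).toPresheafFiber
        (EtCoh.top (Spec (CommRingCat.of R))) (Etbase.StrictHensPoint.elt R) B.obj
        (φ.hom.app (op (EtCoh.top (Spec (CommRingCat.of R)))) x) := fun x =>
    ConcreteCategory.congr_hom h3 x
  have h5 : ⇑((EtCoh.stalk (resPt R)).map φ) ∘ _ = _ ∘ _ := funext h4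
  exact (Function.Injective.of_comp_iff' _ h1).1 (h5 ▸ h2.injective.comp h)

/-- The unit of an open immersion becomes an isomorphism on the open subscheme. -/
theorem isIso_pull_unit {X U : Scheme.{u}} (j : U ⟶ X) [IsOpenImmersion j] (F : EtCoh.Ab X) :
    IsIso ((EtCoh.pull j).map ((EtCoh.pullPushAdj j).unit.app F)) := by
  have := Groth.Agent.Sga4h.EtaleRes.jCont j
  have h1 := (EtCoh.pullPushAdj j).left_triangle_components F
  have h3 : IsIso ((EtCoh.pull j).map ((EtCoh.pullPushAdj j).unit.app F) ≫
      (EtCoh.pullPushAdj j).counit.app ((EtCoh.pull j).obj F)) := by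
    rw [h1]; exact IsIso.id _
  exact IsIso.of_isIso_comp_right _ ((EtCoh.pullPushAdj j).counit.app ((EtCoh.pull j).obj F))

variable {R : Type u} [CommRing R] [HenselianLocalRing R] [IsSepClosed (ResidueField R)]
  {U : Scheme.{u}} (j : U ⟶ Spec (CommRingCat.of R)) [IsOpenImmersion j]
  (hj : ∀ z : Spec (CommRingCat.of R), z ∉ Set.range j → z = closedPoint R)
  (F : EtCoh.Ab (Spec (CommRingCat.of R)))

include hj

theorem mono_unit (h : Function.Injective (hp j F 0)) : Mono ((EtCoh.pullPushAdj j).unit.app F) := by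
  refine Etcore.Stalks.mono_of_stalks _ fun z => ?_
  by_cases hz : z ∈ Set.range j
  · obtain ⟨w, hw⟩ := hz
    obtain ⟨Ω, _, _, ξ, hξ⟩ := Etcore.Stalks.exists_geom w
    refine ⟨Ω, inferInstance, inferInstance, ξ ≫ j, ?_, ?_⟩
    · rw [Scheme.Hom.comp_apply, hξ, hw]
    · have h1 := isIso_pull_unit j F
      have h2 : IsIso ((EtCoh.stalk ξ).map ((EtCoh.pull j).map ((EtCoh.pullPushAdj j).unit.app F))) :=
        inferInstance
      have h3 : IsIso ((EtCoh.stalk (ξ ≫ j)).map ((EtCoh.pullPushAdj j).unit.app F)) :=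
        (NatIso.isIso_map_iff (Etbase.StalkPull.stalkPullIso j ξ) _).2 h2
      exact (ConcreteCategory.bijective_of_isIso _).injective
  · obtain rfl := hj z hz
    refine ⟨ResidueField R, inferInstance, inferInstance, resPt R, resPt_closedPoint R _, ?_⟩
    refine injective_stalk_of_top R _ ?_
    exact (injective_unitSec_iff j F).1 ((injective_hp_zero_iff j F).1 h)

theorem depthGE_one (h : Function.Injective (hp j F 0)) : EtDepth.DepthGE j F 1 := by
  intro p hp
  obtain rfl : p = 0 := by omega
  exact (isZero_locCoh_zero_iff j F).2 (mono_unit j hj F h)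

end Groth.Agent.Sga2lef.H107.DepthOne
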